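import Cfsg.Agent.H73.Rg.HTab

/-!
# S3691, `E₆(q)`, `²E₆(q)`: the tables for one full class and one prime of another class (helper72)

`FU e p f` : the class part (for `q = 4` and the class 9 it is `19 * 73`); `no_cross4`, `no_spor4`.
-/

set_option autoImplicit false
set_option exponentiation.threshold 7000

namespace Cfsg.Agent.H72.Rg2

open Cfsg.Agent.H902 Cfsg.Agent.H290.ElReg Cfsg.Agent.H290.ElTab Cfsg.Agent.H290.ElCross Cfsg.Agent.H563.KG
  Cfsg.Agent.H73.Rg
open Cfsg.Agent.H436 (Prim)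

/-- the data of a test: the shape, the full class, the bound for small primes, a lower bound for the totient, the
class of the extra prime -/
structure D4 where
  Y : Art.Sh
  e : ℕ
  P : ℕ
  t : ℕ
  ex : ℕ

/-- the class part, computable -/
def fu (e p f : ℕ) : ℕ := if e = 9 ∧ p = 2 ∧ f = 2 then 1387 else pc p (f * e)

/-- the class part -/
noncomputable def FU (e p f : ℕ) : ℕ := if e = 9 ∧ p = 2 ∧ f = 2 then 1387 else PP p (f * e)

/-- the test at a small prime -/
def tq4 (D : D4) (M d l f p : ℕ) : Bool := p == l || (Nat.blt (p ^ f) 3 || (!(M % fu D.e p f == 0) ||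
  ((okk (f * D.ex) && Nat.gcd M (pc p (f * D.ex)) == 1) || !((d * OL D.Y (p ^ f)) % M == 0))))

/-- the test at `f` -/
def chk14 (D : D4) (ps : List ℕ) (M d l f : ℕ) : Bool := De ps M (f * D.e) == 1 || (okk (f * D.e) &&
  (Nat.blt (De ps M (f * D.e) * (D.e * f)) (D.P ^ D.t) && (smp D.P).all fun p => tq4 D M d l f p))

/-- the test -/
def chkM4 (D : D4) (ps : List ℕ) (M d l : ℕ) : Bool :=
  Nat.blt M (2 ^ 600) && ((List.range (619 / D.e)).all fun f => chk14 D ps M d l (f + 1))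

/-- the table of the region -/
def chkR4 (n : ℕ) (D : D4) : Bool := (reg n).all fun x =>
  chkM4 D (pd (NS x.1 x.2.1 x.2.2)) (OL x.1 (x.2.1 ^ x.2.2)) (Art.dd x.1 (x.2.1 ^ x.2.2)) x.2.1

/-- the table of the sporadic groups -/
def chkS4 (D : D4) : Bool := Cfsg.Agent.OrdDiv.spor.all fun x => chkM4 D (pd x.2) x.2 1 0

/-- the conditions on the data -/
structure D4.Ok (D : D4) : Prop where
  e7 : 7 ≤ D.e
  ht : D.t ≤ D.e.totient
  hP : 2 ≤ D.P
  hP' : D.P ≤ 311
  hx : 3 ≤ D.ex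

section FU

variable {e p f r : ℕ}

theorem FU_eq (hk : nl (fl (f * e)) = f * e) (hp : 2 ≤ p) : FU e p f = fu e p f := by
  unfold FU fu
  split
  · rfl
  · exact PP_eq hk hp

theorem FU_prime (hp : 2 ≤ p) (he : 7 ≤ e) (hf : 1 ≤ f) (hr : r.Prime) (h : r ∣ FU e p f) : f * e ∣ r - 1 := by
  unfold FU at h
  split at h
  · rename_i h1
    obtain ⟨rfl, rfl, rfl⟩ := h1
    rw [show 1387 = 19 * 73 by norm_num] at h
    rcases hr.dvd_mul.1 h with h2 | h2
    · rw [(Nat.prime_dvd_prime_iff_eq hr (by norm_num)).1 h2]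
    · rw [(Nat.prime_dvd_prime_iff_eq hr (by norm_num)).1 h2]
      norm_num
  · have hfe : 1 * e ≤ f * e := Nat.mul_le_mul_right _ hf
    exact mod_of_prim' hp (prim_of_dvd_PP hp (by omega) hr h)

theorem one_lt_FU (hp : 2 ≤ p) (he : 7 ≤ e) (hf : 1 ≤ f) : 1 < FU e p f := by
  unfold FU
  split
  · norm_num
  · have hfe : 1 * e ≤ f * e := Nat.mul_le_mul_right _ hf
    exact one_lt_PP hp (by omega) (by omega)

end FU

/-- the facts about the field -/
structure Fac4 (D : D4) (M p f : ℕ) : Prop where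
  hp : p.Prime
  hf : 1 ≤ f
  hq : 3 ≤ p ^ f
  full : FU D.e p f ∣ M
  hex : ∃ s, Prim p (f * D.ex) s ∧ s ∣ M

theorem chkM4_false {D : D4} (hD : D.Ok) {ps : List ℕ} {M d l N p f : ℕ} (hM0 : M ≠ 0)
    (hps : ∀ r, r.Prime → r ∣ M → r ∈ ps) (hps' : ∀ r ∈ ps, r ≤ 619) (hF : Fac4 D M p f) (hpl : p ≠ l)
    (hM : M = d * N) (hd : N ∣ OL D.Y (p ^ f)) (hc : chkM4 D ps M d l = true) : False := by
  obtain ⟨hp, hf, hq, hfull, hex⟩ := hF
  have hp2 := hp.two_le
  have h7 := hD.e7
  have hfe : 1 * D.e ≤ f * D.e := Nat.mul_le_mul_right _ hf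
  have hfx : 1 * D.ex ≤ f * D.ex := Nat.mul_le_mul_right _ hf
  have hx := hD.hx
  have g1 : FU D.e p f ≠ 1 := (one_lt_FU hp2 h7 hf).ne'
  unfold chkM4 at hc
  simp only [Bool.and_eq_true, Nat.blt_eq] at hc
  obtain ⟨hM6, hc⟩ := hc
  have key : FU D.e p f ∣ De ps M (f * D.e) := dvd_De hM0 hM6 hfull fun r hr hrd =>
    ⟨hps r hr (hrd.trans hfull), Nat.mod_eq_zero_of_dvd (FU_prime hp2 h7 hf hr hrd)⟩
  have hDe0 : ∀ k, De ps M k ≠ 0 := by
    intro k h4
    unfold De at h4
    rw [List.prod_eq_zero_iff, List.mem_map] at h4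
    obtain ⟨r, -, h5⟩ := h4
    exact hM0 (Nat.eq_zero_of_gcd_eq_zero_left h5)
  have key2 : FU D.e p f ≤ De ps M (f * D.e) := Nat.le_of_dvd (Nat.pos_of_ne_zero (hDe0 _)) key
  -- the range of `f`
  have hfr : f - 1 ∈ List.range (619 / D.e) := by
    obtain ⟨r, hr, hrd⟩ := Nat.exists_prime_and_dvd g1
    have h4 := hps' r (hps r hr (hrd.trans hfull))
    have h6 := Nat.le_of_dvd (by have := hr.two_le; omega) (FU_prime hp2 h7 hf hr hrd)
    have h7 : f ≤ 619 / D.e := by
      rw [Nat.le_div_iff_mul_le (by omega)]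
      omega
    exact List.mem_range.2 (by omega)
  have hc1 := List.all_eq_true.1 hc _ hfr
  rw [show f - 1 + 1 = f by omega] at hc1
  unfold chk14 at hc1
  simp only [Bool.or_eq_true, Bool.and_eq_true, Nat.blt_eq, beq_iff_eq] at hc1
  rcases hc1 with hc1 | ⟨ho, hb, hs⟩
  · rw [hc1] at key
    exact g1 (Nat.dvd_one.1 key)
  have ho1 : nl (fl (f * D.e)) = f * D.e := by simpa [okk] using ho
  have hpP : p ≤ D.P := by
    by_contra hcon
    push Not at hcon
    have h6 := PP_lower (p := p) (f := f) (e := D.e) hp2 (by omega) hf hcon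
    rw [mul_comm D.e f] at h6
    have h8 : D.P ^ D.t ≤ D.P ^ D.e.totient := Nat.pow_le_pow_right (by have := hD.hP; omega) hD.ht
    have h9 : FU D.e p f = PP p (f * D.e) := by
      unfold FU
      rw [if_neg]
      rintro ⟨-, rfl, -⟩
      have := hD.hP
      omega
    rw [h9] at key2
    have h10 : PP p (f * D.e) * (f * D.e) ≤ De ps M (f * D.e) * (f * D.e) := Nat.mul_le_mul_right _ key2
    rw [mul_comm D.e f] at hb
    omega
  have hpm : p ∈ smp D.P := List.mem_filter.2 ⟨mem_sps hp (hpP.trans hD.hP'), by simpa using hpP⟩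
  have h3 := List.all_eq_true.1 hs p hpm
  unfold tq4 at h3
  simp only [Bool.or_eq_true, Nat.blt_eq, beq_iff_eq, Bool.not_eq_true', Bool.and_eq_true] at h3
  rcases h3 with h3 | h3 | h3 | ⟨hco, hcg⟩ | h3
  · exact hpl h3
  · omega
  · have h4 : (M % fu D.e p f == 0) = true := by
      rw [beq_iff_eq, ← FU_eq ho1 hp2]
      exact Nat.mod_eq_zero_of_dvd hfull
    rw [h4] at h3
    exact absurd h3 (by decide)
  · obtain ⟨s, hs1, hs2⟩ := hex
    have hcc : nl (fl (f * D.ex)) = f * D.ex := by simpa [okk] using hco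
    rw [← PP_eq hcc hp2] at hcg
    have h8 : s ∣ 1 := hcg ▸ Nat.dvd_gcd hs2 (dvd_PP hp2 (by omega) hs1)
    exact hs1.prime.one_lt.ne' (Nat.dvd_one.1 h8)
  · have h4 : (d * OL D.Y (p ^ f)) % M = 0 := Nat.mod_eq_zero_of_dvd (hM ▸ Nat.mul_dvd_mul_left d hd)
    rw [h4] at h3
    exact absurd h3 (by decide)

variable {n : ℕ} {D : D4} {p f : ℕ}

/-- **Cross characteristic.** -/
theorem no_cross4 (hn : n ≤ 248) (hD : D.Ok) (hc : chkR4 n D = true) {X : Art.Sh} {l a N : ℕ}
    (hR : Art.Real X l a N) (hlb : lb X (l ^ a) ≤ n) (hpl : p ≠ l) (hF : Fac4 D N p f)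
    (hd : N ∣ OL D.Y (p ^ f)) : False := by
  obtain ⟨hl, ha, hokX, heq⟩ := hR
  have hreg := mem_reg hn hl ha hokX hlb
  have hs' : smooth (NA X l a) = true :=
    List.all_eq_true.1 smooth_reg (X, (l, a)) (mem_reg le_rfl hl ha hokX (hlb.trans hn))
  have hsS : smooth (NS X l a) = true := by
    have h1 : NS X l a ∣ NA X l a := Dvd.intro_left _ rfl
    have h2 : NA X l a ∣ prs.prod ^ 100 := Nat.dvd_of_mod_eq_zero (by simpa [smooth] using hs')
    simpa [smooth] using Nat.mod_eq_zero_of_dvd (h1.trans h2)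
  have hM : OL X (l ^ a) = Art.dd X (l ^ a) * N := by unfold OL; rw [numL_eq]; exact heq.symm
  have hNM : N ∣ OL X (l ^ a) := Dvd.intro_left _ hM.symm
  have hMS : ∀ r, r.Prime → r ∣ OL X (l ^ a) → r ∈ pd (NS X l a) := by
    intro r hr h
    refine mem_pd hsS hr ?_
    unfold NS
    rcases hr.dvd_mul.1 h with h2 | h2
    · exact (hr.dvd_of_dvd_pow (hr.dvd_of_dvd_pow h2)).mul_right _
    · exact h2.mul_left _
  have hM0 : OL X (l ^ a) ≠ 0 := by
    intro h0
    have h3 : l ^ a ≠ 0 := pow_ne_zero _ hl.ne_zero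
    have h4 : NS X l a ≠ 0 := by
      intro h5
      have h6 : NS X l a ∣ prs.prod ^ 100 := Nat.dvd_of_mod_eq_zero (by simpa [smooth] using hsS)
      rw [h5] at h6
      have h7 := Nat.eq_zero_of_zero_dvd h6
      have h8 : prs.prod ≠ 0 := by decide +kernel
      exact pow_ne_zero 100 h8 h7
    apply h4
    unfold OL at h0
    rcases Nat.mul_eq_zero.1 h0 with h5 | h5
    · exact absurd h5 (pow_ne_zero _ h3)
    · unfold NS
      rw [h5, mul_zero]
  have h2 := List.all_eq_true.1 hc (X, (l, a)) hreg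
  have hF' : Fac4 D (OL X (l ^ a)) p f :=
    { hF with
      full := hF.full.trans hNM
      hex := hF.hex.imp fun s hs => ⟨hs.1, hs.2.trans hNM⟩ }
  exact chkM4_false hD hM0 hMS (fun r hr => prs_le r (List.mem_of_mem_filter hr)) hF' hpl hM hd h2

/-- **Sporadic groups.** -/
theorem no_spor4 (hD : D.Ok) (hc : chkS4 D = true) {x : Cfsg.Agent.OrdDiv.Grp × ℕ} (hx : x ∈ Cfsg.Agent.OrdDiv.spor)
    (hF : Fac4 D x.2 p f) (hd : x.2 ∣ OL D.Y (p ^ f)) : False := by
  have hs' : smooth x.2 = true := List.all_eq_true.1 smooth_spor x hx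
  have hM0 : x.2 ≠ 0 := by
    have : ∀ x ∈ Cfsg.Agent.OrdDiv.spor, x.2 ≠ 0 := by decide +kernel
    exact this x hx
  exact chkM4_false hD hM0 (fun r hr h => mem_pd hs' hr h) (fun r hr => prs_le r (List.mem_of_mem_filter hr)) hF
    hF.hp.ne_zero (one_mul _).symm hd (List.all_eq_true.1 hc x hx)

/-- the data for `²E₆(q)`, the full class 18 and a prime of the class 10 -/
def DT : D4 := ⟨.TE6, 18, 23, 6, 10⟩

/-- the data for `E₆(q)`, the full class 9 and a prime of the class 5 -/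
def DE : D4 := ⟨.E6, 9, 23, 6, 5⟩

theorem chkR4_T : chkR4 78 DT = true := by decide +kernel
theorem chkS4_T : chkS4 DT = true := by decide +kernel
theorem chkR4_E : chkR4 78 DE = true := by decide +kernel
theorem chkS4_E : chkS4 DE = true := by decide +kernel

theorem okT : DT.Ok := ⟨by decide, by decide +kernel, by decide, by decide, by decide⟩
theorem okE : DE.Ok := ⟨by decide, by decide +kernel, by decide, by decide, by decide⟩

end Cfsg.Agent.H72.Rg2
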